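import Cfsg.Agent.H777.M5.PGSub
import Cfsg.Agent.H411.M5.Abel

/-!
# Embeddings of `SN` into `PG` (helper768, task P2 of S5230)
-/

set_option autoImplicit false

namespace Cfsg.Agent.H768.M5

open Cfsg.Agent.H777.M5 Cfsg.Agent.H411.M5

/-- the facts about `PG` used here (task P1) -/
structure PFacts : Prop where
  card_SN : Nat.card PG.SN = 5 ^ 6
  card_SL : Nat.card PG.SL = 5 ^ 2
  card_SA : Nat.card PG.SA = 5 ^ 4
  card_SV : Nat.card PG.SV = 5 ^ 4
  comm_SA : ∀ x ∈ PG.SA, ∀ y ∈ PG.SA, x * y = y * x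
  comm_SV : ∀ x ∈ PG.SV, ∀ y ∈ PG.SV, x * y = y * x
  comm_SN : ∀ x ∈ PG.SN, ∀ y ∈ PG.SN, x * y * x⁻¹ * y⁻¹ ∈ PG.SL
  comm_SL : ∀ x ∈ PG.SL, ∀ y ∈ PG.SN, x * y = y * x
  heis : ∀ y ∈ PG.SN, y ∉ PG.SL → ∀ g ∈ PG.SN, ∀ h ∈ PG.SN, g * y = y * g → h * y = y * h → g * h = h * g

theorem SL_le_SN : PG.SL ≤ PG.SN := by
  rintro y ⟨hi, hj, h1, h2, h3, h4, h5⟩
  exact ⟨h5, by rw [h4, hi, mul_zero], by rw [h2, hj]⟩

theorem SL_le_SA : PG.SL ≤ PG.SA := by
  rintro y ⟨hi, hj, h1, h2, h3, h4, h5⟩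
  exact ⟨hi, hj, h2, h4, h5⟩

theorem SL_le_SV : PG.SL ≤ PG.SV := by
  rintro y ⟨hi, hj, h1, h2, h3, h4, h5⟩
  exact ⟨h5, by rw [h4, hi, mul_zero], by rw [h2, hj], by rw [h1, hi, hj]; ring, by rw [h3, hi]; ring⟩

theorem SV_le_SN : PG.SV ≤ PG.SN := by
  rintro y ⟨h1, h2, h3, -, -⟩
  exact ⟨h1, h2, h3⟩

/-- elements of `W` commuting with an element outside `W` -/
theorem card_fix {N : Subgroup PG} {y : PG} (hy : ¬ (y.i = 0 ∧ y.j = 0)) (hN : ∀ g ∈ N, g.i = 0 ∧ g.j = 0 ∧ g * y = y * g) :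
    Nat.card N ≤ 125 := by
  rcases eq_or_ne y.i 0 with hi | hi
  · have hj : y.j ≠ 0 := fun hj => hy ⟨hi, hj⟩
    let φ : N → ZMod 5 × ZMod 5 × ZMod 5 := fun g => (g.1.v 0, g.1.v 3, g.1.c)
    have hφ : Function.Injective φ := by
      intro g h hgh
      obtain ⟨gi, gj, gc⟩ := hN _ g.2
      obtain ⟨hi', hj', hc⟩ := hN _ h.2
      obtain ⟨g5, g2, g4, g1⟩ := fix_eq hy (comm_fix gi gj gc)
      obtain ⟨h5', h2, h4, h1⟩ := fix_eq hy (comm_fix hi' hj' hc)
      rw [hi, zero_mul] at g1 h1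
      have g1' := (mul_eq_zero.1 g1).resolve_left hj
      have h1' := (mul_eq_zero.1 h1).resolve_left hj
      have k0 : g.1.v 0 = h.1.v 0 := congrArg Prod.fst hgh
      have k3 : g.1.v 3 = h.1.v 3 := congrArg (fun p => p.2.1) hgh
      have kc : g.1.c = h.1.c := congrArg (fun p => p.2.2) hgh
      apply Subtype.ext
      refine PG.ext ?_ kc (gi.trans hi'.symm) (gj.trans hj'.symm)
      funext k
      fin_cases k
      · exact k0
      · exact g1'.trans h1'.symm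
      · exact g2.trans h2.symm
      · exact k3
      · exact g4.trans h4.symm
      · exact g5.trans h5'.symm
    have := Nat.card_le_card_of_injective φ hφ
    simpa [Nat.card_prod] using this
  · let φ : N → ZMod 5 × ZMod 5 × ZMod 5 := fun g => (g.1.v 0, g.1.v 1, g.1.c)
    have hφ : Function.Injective φ := by
      intro g h hgh
      obtain ⟨gi, gj, gc⟩ := hN _ g.2
      obtain ⟨hi', hj', hc⟩ := hN _ h.2
      obtain ⟨g5, g2, g4, g1⟩ := fix_eq hy (comm_fix gi gj gc)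
      obtain ⟨h5', h2, h4, h1⟩ := fix_eq hy (comm_fix hi' hj' hc)
      have k0 : g.1.v 0 = h.1.v 0 := congrArg Prod.fst hgh
      have k1 : g.1.v 1 = h.1.v 1 := congrArg (fun p => p.2.1) hgh
      have kc : g.1.c = h.1.c := congrArg (fun p => p.2.2) hgh
      have k3 : g.1.v 3 = h.1.v 3 := mul_left_cancel₀ hi (by rw [← g1, ← h1, k1])
      apply Subtype.ext
      refine PG.ext ?_ kc (gi.trans hi'.symm) (gj.trans hj'.symm)
      funext k
      fin_cases k
      · exact k0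
      · exact k1
      · exact g2.trans h2.symm
      · exact k3
      · exact g4.trans h4.symm
      · exact g5.trans h5'.symm
    have := Nat.card_le_card_of_injective φ hφ
    simpa [Nat.card_prod] using this

/-- an element of `W` commuting modulo `SL` with `y` -/
theorem fix_mod {g y : PG} (hg : g ∈ PG.SW) (hs : g * y * g⁻¹ * y⁻¹ ∈ PG.SL) {k : Fin 6} (hk : k ≠ 0) :
    act y.i y.j g.v k = g.v k := by
  have e : g * y * g⁻¹ * y⁻¹ * (y * g) = g * y := by group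
  obtain ⟨si, sj, s1, s2, s3, s4, s5⟩ := hs
  obtain ⟨gi, gj⟩ := hg
  have h1 := congrFun (congrArg PG.v e) k
  rw [PG.mul_v _ (y * g), si, sj, act_one, PG.mul_v y g, PG.mul_v g y, gi, gj, act_one] at h1
  simp only [Pi.add_apply] at h1
  have h0 : (g * y * g⁻¹ * y⁻¹).v k = 0 := by
    fin_cases k
    · exact absurd rfl hk
    · exact s1
    · exact s2
    · exact s3
    · exact s4
    · exact s5
  rw [h0] at h1
  linear_combination h1

theorem mem_SA_of {g y₁ y₂ : PG} (hg : g ∈ PG.SW) (i1 : y₁.i = 1) (j1 : y₁.j = 0) (i2 : y₂.i = 0) (j2 : y₂.j = 1)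
    (h1 : g * y₁ * g⁻¹ * y₁⁻¹ ∈ PG.SL) (h2 : g * y₂ * g⁻¹ * y₂⁻¹ ∈ PG.SL) : g ∈ PG.SA := by
  have a1 := fix_mod hg h1 (k := 1) (by decide)
  have a2 := fix_mod hg h1 (k := 2) (by decide)
  have b1 := fix_mod hg h2 (k := 1) (by decide)
  rw [act1, i1, j1] at a1
  rw [act2, i1] at a2
  rw [act1, i2, j2] at b1
  have v5 : g.v 5 = 0 := by linear_combination -a2
  rw [v5] at a1 b1
  exact ⟨hg.1, hg.2, by linear_combination b1, by linear_combination -a1, v5⟩

theorem card_M : Nat.card (Multiplicative (ZMod 5 × ZMod 5)) = 5 ^ 2 := by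
  rw [Nat.card_congr Multiplicative.toAdd, Nat.card_prod, Nat.card_zmod]
  norm_num

/-- a homomorphism to `C5 × C5` with small kernel is onto -/
theorem surj_of_card {K : Type*} [Group K] [Finite K] (f : K →* Multiplicative (ZMod 5 × ZMod 5)) {n : ℕ}
    (hK : Nat.card K = 5 ^ (n + 2)) (hk : Nat.card f.ker ≤ 5 ^ n) : Function.Surjective f := by
  have h1 := f.ker.card_mul_index
  rw [Subgroup.index_ker, hK] at h1
  have h2 : 5 ^ 2 ≤ Nat.card f.range := by
    by_contra hlt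
    push Not at hlt
    have h3 : Nat.card f.ker * Nat.card f.range < 5 ^ n * 5 ^ 2 :=
      Nat.mul_lt_mul_of_le_of_lt hk hlt (by positivity)
    rw [h1, pow_add] at h3
    exact lt_irrefl _ h3
  rw [← MonoidHom.range_eq_top]
  exact Subgroup.eq_top_of_le_card _ (by rw [card_M]; exact h2)

theorem exists_pair {K : Type*} [Group K] {f : K →* Multiplicative (ZMod 5 × ZMod 5)} (hf : Function.Surjective f)
    {g : K → PG} (hg : ∀ k, f k = Multiplicative.ofAdd ((g k).i, (g k).j)) :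
    ∃ y₁ y₂ : K, (g y₁).i = 1 ∧ (g y₁).j = 0 ∧ (g y₂).i = 0 ∧ (g y₂).j = 1 := by
  obtain ⟨y1, hy1⟩ := hf (Multiplicative.ofAdd (1, 0))
  obtain ⟨y2, hy2⟩ := hf (Multiplicative.ofAdd (0, 1))
  rw [hg] at hy1 hy2
  have hy1' : (((g y1).i, (g y1).j) : ZMod 5 × ZMod 5) = (1, 0) := hy1
  have hy2' : (((g y2).i, (g y2).j) : ZMod 5 × ZMod 5) = (0, 1) := hy2
  exact ⟨y1, y2, congrArg Prod.fst hy1', congrArg Prod.snd hy1', congrArg Prod.fst hy2', congrArg Prod.snd hy2'⟩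

section

variable (F : PFacts) {ψ : PG.SN →* PG} (hψ : Function.Injective ψ)

include F in
theorem heis' {y : PG.SN} (hy : (y : PG) ∉ PG.SL) {g h : PG.SN} (hg : g * y = y * g) (hh : h * y = y * h) :
    g * h = h * g :=
  Subtype.ext (F.heis y y.2 hy g g.2 h h.2 (congrArg Subtype.val hg) (congrArg Subtype.val hh))

include F in
theorem card_SL' : Nat.card (PG.SL.subgroupOf PG.SN) = 5 ^ 2 := by
  rw [← F.card_SL]
  exact Nat.card_congr (Subgroup.subgroupOfEquivOfLe SL_le_SN).toEquiv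

include F in
theorem card_SV' : Nat.card (PG.SV.subgroupOf PG.SN) = 5 ^ 4 := by
  rw [← F.card_SV]
  exact Nat.card_congr (Subgroup.subgroupOfEquivOfLe SV_le_SN).toEquiv

/-- the preimage of `W` -/
def KW (ψ : PG.SN →* PG) : Subgroup PG.SN := (ijHom.comp ψ).ker

theorem mem_KW {y : PG.SN} : y ∈ KW ψ ↔ (ψ y).i = 0 ∧ (ψ y).j = 0 := ijHom_eq_one

include F in
theorem card_KW_ge : 5 ^ 4 ≤ Nat.card (KW ψ) := by
  have h1 := (ijHom.comp ψ).ker.card_mul_index
  rw [Subgroup.index_ker, F.card_SN] at h1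
  have h2 : Nat.card (ijHom.comp ψ).range ≤ 5 ^ 2 := by
    rw [← card_M]
    exact Subgroup.card_le_card_group _
  by_contra hlt
  push Not at hlt
  have h3 : Nat.card (ijHom.comp ψ).ker * Nat.card (ijHom.comp ψ).range < 5 ^ 4 * 5 ^ 2 :=
    Nat.mul_lt_mul_of_lt_of_le hlt h2 (by norm_num)
  rw [h1] at h3
  norm_num at h3

include hψ in
/-- commutative subgroups of `SN` -/
theorem card_le_of_comm {A : Subgroup PG.SN} (hA : ∀ x ∈ A, ∀ y ∈ A, x * y = y * x) : Nat.card A ≤ 5 ^ 4 := by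
  rw [Nat.card_congr (A.equivMapOfInjective ψ hψ).toEquiv]
  apply card_le_of_comm_PG
  rintro _ ⟨x, hx, rfl⟩ _ ⟨y, hy, rfl⟩
  rw [← map_mul, hA x hx y hy, map_mul]

include F hψ in
theorem KW_comm (hc : 5 ^ 4 < Nat.card (KW ψ)) : ∀ x ∈ KW ψ, ∀ y ∈ KW ψ, x * y = y * x := by
  intro w hw w' hw'
  -- the commutators with `w` and `w'`
  let χ : KW ψ →* Multiplicative (ZMod 5 × ZMod 5) :=
    { toFun := fun k => Multiplicative.ofAdd (om (ψ w).v (ψ k).v, om (ψ w').v (ψ k).v)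
      map_one' := by
        rw [Subgroup.coe_one, map_one, PG.one_v, om_zero_right, om_zero_right]
        rfl
      map_mul' := by
        intro k l
        rw [← ofAdd_add, Prod.mk_add_mk, Subgroup.coe_mul, map_mul, PG.mul_v, (mem_KW.1 k.2).1, (mem_KW.1 k.2).2, act_one,
          om_add_right, om_add_right] }
  have h1 := χ.ker.card_mul_index
  rw [Subgroup.index_ker] at h1
  have h2 : Nat.card χ.range ≤ 5 ^ 2 := by
    rw [← card_M]
    exact Subgroup.card_le_card_group _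
  have h3 : 5 ^ 2 < Nat.card χ.ker := by
    by_contra hlt
    push Not at hlt
    have h4 : Nat.card χ.ker * Nat.card χ.range ≤ 5 ^ 2 * 5 ^ 2 := Nat.mul_le_mul hlt h2
    rw [h1] at h4
    omega
  -- an element outside `SL`
  obtain ⟨τ, hτ, hτL⟩ : ∃ τ ∈ χ.ker.map (KW ψ).subtype, τ ∉ PG.SL.subgroupOf PG.SN := by
    by_contra hcon
    push Not at hcon
    have h5 := Subgroup.card_le_of_le (show χ.ker.map (KW ψ).subtype ≤ PG.SL.subgroupOf PG.SN from hcon)
    rw [card_SL' F, Nat.card_congr (χ.ker.equivMapOfInjective _ (Subgroup.subtype_injective _)).symm.toEquiv] at h5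
    omega
  obtain ⟨τ, hτ, rfl⟩ := hτ
  have h6 : ((om (ψ w).v (ψ τ).v, om (ψ w').v (ψ τ).v) : ZMod 5 × ZMod 5) = (0, 0) := hτ
  obtain ⟨ti, tj⟩ := mem_KW.1 τ.2
  have key : ∀ u : PG.SN, u ∈ KW ψ → om (ψ u).v (ψ τ).v = 0 → u * τ = τ * u := by
    intro u hu huo
    obtain ⟨ui, uj⟩ := mem_KW.1 hu
    apply hψ
    rw [map_mul, map_mul]
    apply PG.ext
    · rw [PG.mul_v, PG.mul_v, ui, uj, ti, tj, act_one, act_one, add_comm]
    · rw [PG.mul_c, PG.mul_c, ui, uj, ti, tj, act_one, act_one, om_swap (ψ u).v (ψ τ).v, huo]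
      ring
    · rw [PG.mul_i, PG.mul_i, add_comm]
    · rw [PG.mul_j, PG.mul_j, add_comm]
  exact heis' F hτL (key w hw (congrArg Prod.fst h6)) (key w' hw' (congrArg Prod.snd h6))

include F hψ in
theorem card_KW : Nat.card (KW ψ) = 5 ^ 4 := by
  apply le_antisymm _ (card_KW_ge F)
  by_contra hlt
  push Not at hlt
  exact absurd (card_le_of_comm hψ (KW_comm F hψ hlt)) (not_le.2 hlt)

include F hψ in
theorem surj : Function.Surjective (ijHom.comp ψ) :=
  surj_of_card _ (n := 4) F.card_SN (card_KW F hψ).le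

include F hψ in
theorem SL_le_KW {y : PG.SN} (hy : (y : PG) ∈ PG.SL) : y ∈ KW ψ := by
  rw [mem_KW]
  by_contra hcon
  have h1 : Nat.card ((KW ψ).map ψ) ≤ 125 := by
    apply card_fix hcon
    rintro _ ⟨k, hk, rfl⟩
    obtain ⟨ki, kj⟩ := mem_KW.1 hk
    refine ⟨ki, kj, ?_⟩
    rw [← map_mul, ← map_mul]
    congr 1
    exact (Subtype.ext (F.comm_SL y hy k k.2)).symm
  rw [Nat.card_congr ((KW ψ).equivMapOfInjective ψ hψ).symm.toEquiv, card_KW F hψ] at h1
  norm_num at h1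

include F hψ in
theorem map_SL {y : PG.SN} (hy : (y : PG) ∈ PG.SL) : ψ y ∈ PG.SL := by
  obtain ⟨y₁, y₂, i1, j1, i2, j2⟩ := exists_pair (surj F hψ) (g := ψ) (fun _ => rfl)
  obtain ⟨hi, hj⟩ := mem_KW.1 (SL_le_KW F hψ hy)
  have hc : ∀ u, ψ y * ψ u = ψ u * ψ y := by
    intro u
    rw [← map_mul, ← map_mul]
    congr 1
    exact Subtype.ext (F.comm_SL y hy u u.2)
  have f1 := comm_fix hi hj (hc y₁)
  have f2 := comm_fix hi hj (hc y₂)
  rw [i1, j1] at f1
  rw [i2, j2] at f2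
  obtain ⟨g5, g2, g4, g1⟩ := fix_eq (by decide) f1
  obtain ⟨-, -, -, g3⟩ := fix_eq (by decide) f2
  rw [zero_mul, one_mul] at g1
  rw [zero_mul, one_mul] at g3
  exact ⟨hi, hj, g3, g2, g1.symm, g4, g5⟩

include F hψ in
theorem SL_iff (y : PG.SN) : (y : PG) ∈ PG.SL ↔ ψ y ∈ PG.SL := by
  refine ⟨map_SL F hψ, fun h => ?_⟩
  have h1 : (PG.SL.subgroupOf PG.SN).map ψ = PG.SL := by
    apply Subgroup.eq_of_le_of_card_ge
    · rintro _ ⟨k, hk, rfl⟩
      exact map_SL F hψ hk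
    · rw [Nat.card_congr ((PG.SL.subgroupOf PG.SN).equivMapOfInjective ψ hψ).symm.toEquiv, card_SL' F, F.card_SL]
  rw [← h1] at h
  obtain ⟨k, hk, hky⟩ := h
  rw [← hψ hky]
  exact hk

include F hψ in
theorem KW_map : (KW ψ).map ψ = PG.SA := by
  obtain ⟨y₁, y₂, i1, j1, i2, j2⟩ := exists_pair (surj F hψ) (g := ψ) (fun _ => rfl)
  apply Subgroup.eq_of_le_of_card_ge
  · rintro _ ⟨k, hk, rfl⟩
    have hc : ∀ u : PG.SN, ψ k * ψ u * (ψ k)⁻¹ * (ψ u)⁻¹ ∈ PG.SL := by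
      intro u
      rw [← map_inv, ← map_inv, ← map_mul, ← map_mul, ← map_mul]
      exact map_SL F hψ (F.comm_SN k k.2 u u.2)
    exact mem_SA_of (mem_KW.1 hk) i1 j1 i2 j2 (hc y₁) (hc y₂)
  · rw [Nat.card_congr ((KW ψ).equivMapOfInjective ψ hψ).symm.toEquiv, card_KW F hψ, F.card_SA]

include F hψ in
theorem mem_KW_iff {y : PG.SN} : y ∈ KW ψ ↔ ψ y ∈ PG.SA := by
  rw [← KW_map F hψ]
  constructor
  · exact Subgroup.mem_map_of_mem ψ
  · rintro ⟨k, hk, hky⟩
    rw [← hψ hky]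
    exact hk

include F hψ in
/-- `V` and `A` meet in `L` -/
theorem inter_le (hne : PG.SV.subgroupOf PG.SN ≠ KW ψ) {y : PG.SN} (hy : (y : PG) ∈ PG.SV) (hy' : y ∈ KW ψ) :
    (y : PG) ∈ PG.SL := by
  by_contra hcon
  apply hne
  let C : Subgroup PG.SN := Subgroup.centralizer ({y} : Set PG.SN)
  have hC : ∀ g ∈ C, g * y = y * g := fun g hg => Subgroup.mem_centralizer_singleton_iff.1 hg
  have hcard : Nat.card C ≤ 5 ^ 4 := card_le_of_comm hψ fun g hg h hh => heis' F hcon (hC g hg) (hC h hh)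
  have h1 : PG.SV.subgroupOf PG.SN = C := by
    apply Subgroup.eq_of_le_of_card_ge
    · intro g hg
      exact Subgroup.mem_centralizer_singleton_iff.2 (Subtype.ext (F.comm_SV g hg y hy))
    · rw [card_SV' F]; exact hcard
  have h2 : KW ψ = C := by
    apply Subgroup.eq_of_le_of_card_ge
    · intro g hg
      refine Subgroup.mem_centralizer_singleton_iff.2 (hψ ?_)
      rw [map_mul, map_mul]
      exact F.comm_SA _ ((mem_KW_iff F hψ).1 hg) _ ((mem_KW_iff F hψ).1 hy')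
    · rw [card_KW F hψ]; exact hcard
  rw [h1, h2]

include F hψ in
theorem card_normalizer (hne : PG.SV.subgroupOf PG.SN ≠ KW ψ) :
    Nat.card (Subgroup.normalizer (((PG.SV.subgroupOf PG.SN).map ψ : Subgroup PG) : Set PG)) ≤ 5 ^ 6 := by
  -- `ψ(V)` maps onto `PG / W`
  let f : PG.SV.subgroupOf PG.SN →* Multiplicative (ZMod 5 × ZMod 5) := (ijHom.comp ψ).comp (PG.SV.subgroupOf PG.SN).subtype
  have hf : Function.Surjective f := by
    refine surj_of_card f (n := 2) (card_SV' F) ?_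
    rw [← card_SL' F, Nat.card_congr (f.ker.equivMapOfInjective _ (Subgroup.subtype_injective _)).toEquiv]
    apply Subgroup.card_le_of_le
    rintro _ ⟨k, hk, rfl⟩
    exact inter_le F hψ hne k.2 hk
  obtain ⟨y₁, y₂, i1, j1, i2, j2⟩ := exists_pair hf (g := fun k => ψ k) (fun _ => rfl)
  generalize hN : Subgroup.normalizer (((PG.SV.subgroupOf PG.SN).map ψ : Subgroup PG) : Set PG) = N
  let q : N →* Multiplicative (ZMod 5 × ZMod 5) := ijHom.comp N.subtype
  have h1 := q.ker.card_mul_index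
  rw [Subgroup.index_ker] at h1
  have h2 : Nat.card q.range ≤ 5 ^ 2 := by
    rw [← card_M]
    exact Subgroup.card_le_card_group _
  have h3 : Nat.card q.ker ≤ 5 ^ 4 := by
    rw [← F.card_SA, Nat.card_congr (q.ker.equivMapOfInjective _ (Subgroup.subtype_injective _)).toEquiv]
    apply Subgroup.card_le_of_le
    rintro _ ⟨g, hg, rfl⟩
    have hgW : (g : PG) ∈ PG.SW := ijHom_eq_one.1 hg
    have key : ∀ k : PG.SV.subgroupOf PG.SN, (g : PG) * ψ k * (g : PG)⁻¹ * (ψ k)⁻¹ ∈ PG.SL := by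
      intro k
      have hgN : (g : PG) ∈ Subgroup.normalizer (((PG.SV.subgroupOf PG.SN).map ψ : Subgroup PG) : Set PG) := by
        rw [hN]; exact g.2
      have h4 : (g : PG) * ψ k * (g : PG)⁻¹ ∈ (PG.SV.subgroupOf PG.SN).map ψ :=
        (Subgroup.mem_normalizer_iff.1 hgN _).1 (Subgroup.mem_map_of_mem ψ k.2)
      have h5 : (g : PG) * ψ k * (g : PG)⁻¹ * (ψ k)⁻¹ ∈ (PG.SV.subgroupOf PG.SN).map ψ :=
        Subgroup.mul_mem _ h4 (Subgroup.inv_mem _ (Subgroup.mem_map_of_mem ψ k.2))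
      obtain ⟨l, hl, hle⟩ := h5
      have h6 : l ∈ KW ψ := by
        rw [mem_KW, hle]
        constructor
        · simp only [PG.mul_i, PG.inv_i]; ring
        · simp only [PG.mul_j, PG.inv_j]; ring
      rw [← hle]
      exact map_SL F hψ (inter_le F hψ hne hl h6)
    exact mem_SA_of hgW i1 j1 i2 j2 (key y₁) (key y₂)
  calc Nat.card N = Nat.card q.ker * Nat.card q.range := h1.symm
    _ ≤ 5 ^ 4 * 5 ^ 2 := Nat.mul_le_mul h3 h2
    _ = 5 ^ 6 := by norm_num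

include F hψ in
theorem fn_pg_of : (∀ y : PG.SN, (y : PG) ∈ PG.SL ↔ ψ y ∈ PG.SL) ∧
    ((∀ y : PG.SN, (y : PG) ∈ PG.SV ↔ ψ y ∈ PG.SA) ∨
     Nat.card (Subgroup.normalizer (((PG.SV.subgroupOf PG.SN).map ψ : Subgroup PG) : Set PG)) ≤ 5 ^ 6) := by
  refine ⟨SL_iff F hψ, ?_⟩
  by_cases hne : PG.SV.subgroupOf PG.SN = KW ψ
  · left
    intro y
    rw [← mem_KW_iff F hψ, ← hne]
    rfl
  · exact Or.inr (card_normalizer F hψ hne)

end

end Cfsg.Agent.H768.M5
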